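import Cfsg.Agent.TH.Sim.LieKill
import Cfsg.Agent.TH.Sim.LieRunA
import Cfsg.Agent.TH.Sim.LieRunB
import Cfsg.Agent.TH.Sim.LieRunC
import Cfsg.Agent.TH.Sim.Dat
import Cfsg.Agent.H364.LieNam
import Cfsg.Agent.H906.E9C
import Cfsg.Agent.S0252
import Cfsg.Agent.S0253
import Cfsg.Agent.S0254

/-!
# S3541, box SimLie: classical socle, `H ⊓ T` almost simple of Lie type in another characteristic (helper6)
-/

set_option autoImplicit false

namespace Cfsg.Agent.TH.Sim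

namespace LieN

open Cfsg Cfsg.Agent.OrdDiv Cfsg.Agent.H902 Cfsg.Agent.H902.Names Cfsg.Agent.H912.Bd Cfsg.Agent.TH.Sv

theorem run {X : Art.Sh} (h : rk X ≤ 13) : chkX X = true := by
  cases X
  exacts [run_L h, run_C h, run_U h, run_D h, run_DD h, run_G2, run_F4, run_E6, run_E7, run_E8, run_TE6, run_TD4, run_Sz,
    run_Ree, run_TF4]

section

variable {S : Type} [Group S] {g : Grp} {r e k q : ℕ}

theorem isL (hg : IsLie g (.L k) r e) (h : OrdDiv.Real g S) (hq : r ^ e = q) : IsL k q S := by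
  subst hq
  cases hg
  exact h

theorem isU (hg : IsLie g (.U k) r e) (h : OrdDiv.Real g S) (hq : r ^ e = q) : IsU k q S := by
  subst hq
  cases hg
  exact h

theorem isS (hg : IsLie g (.C 2) r e) (h : OrdDiv.Real g S) (hq : r ^ e = q) : IsS 2 q S := by
  subst hq
  cases hg with
  | psp => exact h
  | oodd _ _ _ hn => omega

theorem eq_prime (hr : r.Prime) (he : 1 ≤ e) (hq : q.Prime) (h : r ^ e = q) : r = q ∧ e = 1 := by
  obtain rfl := eq_of_pow hr he hq (k := 1) (h.trans (pow_one q).symm)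
  exact ⟨rfl, Nat.pow_right_injective hr.two_le (h.trans (pow_one r).symm)⟩

theorem lie_two_of_l27 (h : IsL 2 7 S) : IsLieTypeChar 2 S := by
  obtain ⟨K, _, _, hK, ⟨e⟩⟩ := h
  obtain ⟨e'⟩ := S0255.result hK (ZMod.card 2)
  exact Or.inl ⟨ZMod 2, inferInstance, inferInstance, inferInstance, 3, by decide, by decide, ⟨e.trans e'⟩⟩

theorem lie_two_of_s43 (h : IsS 2 3 S) : IsLieTypeChar 2 S := by
  obtain ⟨K, _, _, hK, ⟨e⟩⟩ := h
  have := Fintype.ofFinite (GaloisField 2 2)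
  have h5 : Fintype.card (GaloisField 2 2) = 4 := by
    rw [← Nat.card_eq_fintype_card, GaloisField.card 2 2 two_ne_zero]; rfl
  obtain ⟨e'⟩ := S0822.result h5 hK
  exact Or.inr (Or.inr (Or.inl ⟨GaloisField 2 2, inferInstance, inferInstance, inferInstance, 4, 2, h5, by decide,
    by decide, ⟨e.trans e'.symm⟩⟩))

end

variable {G : Type} [Group G] [Finite G] {T H N : Subgroup G} {m p t n f : ℕ}

theorem core (hK : AllK) (c : LieCtx T H m p) (hS : Sim T H N) (D : ClDat p T t n f) (hp : ¬ IsLieTypeChar p N)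
    {g : Grp} {X : Art.Sh} {r e : ℕ} (hg : IsLie g X r e) (h : OrdDiv.Real g N) (hr : Art.Real X r e (Nat.card N))
    (hx : ¬ Ex X (r ^ e)) (hpr : p ≠ r) : False := by
  have := hS.simple
  have hA := H889.Enum.card_aut (fun hc => hS.nonab ⟨⟨hc⟩⟩) hg h hr
  have hl := li_le hS.nonab hg h hr hx
  have hM := ordS_eq hr
  obtain ⟨F, _, _, _, P, hP, ⟨eP⟩⟩ := exists_perfect D.rep (Subgroup.inclusion (hS.le.trans inf_le_right))
    (Subgroup.inclusion_injective _) (H95.LSx.perfect_of_simple hS.nonab)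
  have hF : ∀ s : ℕ, s.Prime → p ≠ s → (s : F) ≠ 0 := fun s hs h1 h2 =>
    h1 ((Nat.prime_dvd_prime_iff_eq c.prime hs).1 ((CharP.cast_eq_zero_iff F p s).1 h2))
  have h1 := le_of_ls (ls_lp hg h hr hx) (hF r hr.hp hpr) P hP eP
  have h2 := D.lmin_le c.as c.half ((Nat.le_of_dvd Nat.card_pos hS.card_dvd_aut).trans hA.le)
  have h3 := valid_three D.valid
  have h4 := lt_4096 (Z := f * (n - 2)) hr (by have := Nat.le_mul_of_pos_left (n - 2) D.pos; omega)
    ((two_pow_le_lmin c.prime.two_le D.pos D.valid).trans (h2.trans (Nat.pow_le_pow_left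
      ((Nat.mul_le_mul_left _ ((outCl_le c.prime D.pos h3).trans (ob_le h3))).trans (le_of_eq (by ring))) 2)))
  by_cases hk : Sk X (r ^ e) t n p f
  · rcases hk with ⟨hq, rfl, hk⟩ | ⟨hq, ⟨rfl, rfl⟩ | ⟨rfl, rfl, rfl, rfl, rfl⟩⟩ | ⟨hq, rfl, rfl, hk⟩ |
      ⟨hq, rfl, rfl, rfl, rfl, rfl⟩
    · rcases hk with rfl | ⟨rfl, rfl, rfl, hk⟩
      · exact hp (lie_two_of_l27 (isL hg h hq))
      · obtain ⟨rfl, rfl⟩ := eq_prime hr.hp hr.hf (by decide) hq
        have h5 : Nat.card N = 168 := hM.symm.trans (by decide)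
        exact kill_l27 hK c hS D hk (isL hg h hq) h5 (by rw [hA, h5]; decide) hl
    · exact hp (lie_two_of_s43 (isS hg h hq))
    · obtain ⟨rfl, rfl⟩ := eq_prime hr.hp hr.hf (by decide) hq
      have h5 : Nat.card N = 3265920 := hM.symm.trans (by decide +kernel)
      exact kill_u43 hK c hS D (isU hg h hq) h5 (by rw [hA, h5]; decide) hl
    · obtain ⟨K, _, _, hK', ⟨e'⟩⟩ := isL hg h hq
      exact H906.T14.not_four_L34 (by exact_mod_cast hF 3 Nat.prime_three hk) hP hK' (eP.trans e')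
    · obtain ⟨rfl, rfl⟩ := eq_prime hr.hp hr.hf (by decide) hq
      have h5 : Nat.card N = 660 := hM.symm.trans (by decide)
      exact kill_l211 hK c hS D (isL hg h hq) h5 (by rw [hA, h5]; decide) hl
  · exact Bool.false_ne_true (flt_of_sv hK c hS D rfl hA hl (chkX_sound
      (run (rk_le (Nat.one_lt_pow (by have := hr.hf; omega) hr.hp.one_lt) h4)) hr hx h4 c.prime D.pos D.valid h2 hpr h1
      (fun h5 => bd_lc hg h hr (hF r hr.hp hpr) n (PR.of_perfect P hP hr.hp h5 eP)) hk)).symm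

end LieN

open Cfsg.Agent.H902 Cfsg.Agent.H902.Names LieN in
/-- **[S-Lie]** -/
theorem boxSimLie : BoxSimLie := by
  rintro hK G _ _ T H N m p c - hS hT ⟨hp, hA, r, hr, hN⟩
  obtain ⟨t, n, f, D⟩ := Sv.boxClDat G T H m p c hT
  obtain ⟨g, X, e, hg, h, hR⟩ := H364.LieNam.lie_nam OrdDiv.table hr hN
  by_cases hx : Ex X (r ^ e)
  swap
  · exact core hK c hS D hp hg h hR hx fun e => hp (e ▸ hN)
  rcases hx with ⟨rfl, hq | hq | hq⟩ | ⟨hq, rfl | rfl | rfl⟩
  · obtain ⟨K, _, _, hK', ⟨e'⟩⟩ := isL hg h hq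
    exact hA ⟨5, le_rfl, ⟨e'.trans (S0252.result hK').some⟩⟩
  · obtain ⟨K, _, _, hK', ⟨e'⟩⟩ := isL hg h hq
    exact hA ⟨5, le_rfl, ⟨e'.trans (S0253.result hK').some⟩⟩
  · obtain ⟨K, _, _, hK', ⟨e'⟩⟩ := isL hg h hq
    exact hA ⟨6, by decide, ⟨e'.trans (S0254.result hK').some⟩⟩
  · obtain ⟨K, _, _, hK', ⟨e'⟩⟩ := isL hg h hq
    have := Fact.mk (by decide : Nat.Prime 7)
    have e7 := e'.trans (S0255.result (ZMod.card 7) hK').some.symm
    refine core hK c hS D hp (.psl 2 7 1) ⟨ZMod 7, inferInstance, inferInstance, ZMod.card 7, ⟨e7⟩⟩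
      (by rw [Nat.card_congr e7.toEquiv]; exact psl_real (by decide) le_rfl (ZMod.card 7) le_rfl (by decide)) (by decide) ?_
    rintro rfl
    exact hp (Or.inl ⟨ZMod 7, inferInstance, inferInstance, inferInstance, 2, le_rfl, by simp, ⟨e7⟩⟩)
  · obtain ⟨K, _, _, hK', ⟨e'⟩⟩ := isL hg h hq
    exact hA ⟨8, by decide, ⟨e'.trans (S0256.result hK').some⟩⟩
  · obtain ⟨K, _, _, hK', ⟨e'⟩⟩ := isU hg h hq
    have e3 := e'.trans (S0822.result hK' (ZMod.card 3)).some
    refine core hK c hS D hp (.psp 2 3 1) ⟨ZMod 3, inferInstance, inferInstance, ZMod.card 3, ⟨e3⟩⟩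
      (by rw [Nat.card_congr e3.toEquiv]; exact psp_real (by decide) le_rfl (ZMod.card 3) le_rfl (by decide)) (by decide) ?_
    rintro rfl
    exact hp (Or.inr (Or.inl ⟨ZMod 3, inferInstance, inferInstance, inferInstance, 2, le_rfl, by simp, ⟨e3⟩⟩))

end Cfsg.Agent.TH.Sim
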