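import Cfsg.Agent.TH.Sim.LieCore
import Cfsg.Agent.H408.BaseU
import Cfsg.Agent.H541.RecU52
import Cfsg.Agent.H160.PSLTwo
import Cfsg.Agent.H876.OZU.Cent
import Cfsg.Agent.H798.PSLDih
import Cfsg.Agent.H269.PsuFour
import Cfsg.Agent.S3116
import Cfsg.Agent.OrdDiv.Table

/-!
# S3541, box SimLie: `L₂(7) < U₃(3), U₃(5)`, `U₄(3) < L₆(7)`, `L₂(11) < U₅(2)` (helper6)
-/

set_option autoImplicit false

namespace Cfsg.Agent.TH.Sim.LieN

open Cfsg.Agent.TH.Sv Cfsg.Agent.TH.Own Cfsg.Agent.H912.Bd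

theorem card_norm {X : Type} [Group X] [Finite X] (P : Subgroup X) :
    ∃ A : Subgroup (MulAut P), Nat.card (Subgroup.normalizer (P : Set X)) =
      Nat.card (Subgroup.centralizer (P : Set X)) * Nat.card A := by
  refine ⟨P.normalizerMonoidHom.range, ?_⟩
  rw [← Subgroup.index_ker, Subgroup.normalizerMonoidHom_ker, ← Subgroup.relIndex,
    card_mul_relIndex (Subgroup.centralizer_le_normalizer _)]

/-- a four-group in the dihedral group of order eight -/
def V4 : Subgroup (DihedralGroup 4) where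
  carrier := {x | x = 1 ∨ x = .r 2 ∨ x = .sr 0 ∨ x = .sr 2}
  mul_mem' := by rintro _ _ (rfl | rfl | rfl | rfl) (rfl | rfl | rfl | rfl) <;> simp only [Set.mem_ofPred_eq] <;> decide
  one_mem' := Or.inl rfl
  inv_mem' := by rintro _ (rfl | rfl | rfl | rfl) <;> simp only [Set.mem_ofPred_eq] <;> decide

theorem card_V4 : Nat.card V4 = 4 := by
  have h : (V4 : Set (DihedralGroup 4)) = ({1, .r 2, .sr 0, .sr 2} : Finset (DihedralGroup 4)) := by
    ext x
    simp only [Finset.coe_insert, Finset.coe_singleton, Set.mem_insert_iff, Set.mem_singleton_iff]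
    rfl
  rw [← SetLike.coe_sort_coe, Nat.card_coe_set_eq, h, Set.ncard_coe_finset]
  decide

theorem dvd_index_dih {X : Type} [Group X] [Finite X] {P : Subgroup X} (e : P ≃* DihedralGroup (2 ^ 2)) {c w : ℕ}
    (hc : ∀ V : Subgroup X, Nat.card V = 4 → (∀ x ∈ V, x * x = 1) → Nat.card (Subgroup.centralizer (V : Set X)) = c)
    (hw : w.Coprime (2 * c)) (hX : w ∣ Nat.card X) : w ∣ (Subgroup.normalizer (P : Set X)).index := by
  let j : DihedralGroup 4 →* X := P.subtype.comp e.symm.toMonoidHom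
  have hj : Function.Injective j := P.subtype_injective.comp e.symm.injective
  have h1 := hc (V4.map j) (by rw [Subgroup.card_map_of_injective hj, card_V4]) (by
    rintro _ ⟨x, hx, rfl⟩
    rw [← map_mul, ← map_one j]
    congr 1
    rcases hx with rfl | rfl | rfl | rfl <;> decide)
  have h2 : Nat.card (Subgroup.centralizer (P : Set X)) ∣ c := h1 ▸ Subgroup.card_dvd_of_le
    (Subgroup.centralizer_le (by rintro _ ⟨x, -, rfl⟩; exact (e.symm x).2))
  obtain ⟨A, hA⟩ := card_norm P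
  obtain ⟨k, hk⟩ := IsPGroup.iff_card.1 (((S3116.isPGroup_dihedral 2 le_rfl).of_equiv (MulAut.congr e).symm).to_subgroup A)
  rw [← (Subgroup.normalizer (P : Set X)).card_mul_index] at hX
  refine Nat.Coprime.dvd_of_dvd_mul_left ?_ hX
  rw [hA, hk]
  exact Nat.Coprime.mul_right ((Nat.Coprime.coprime_mul_left_right hw).coprime_dvd_right h2)
    (Nat.Coprime.pow_right k (Nat.Coprime.coprime_mul_right_right hw))

variable {G : Type} [Group G] [Finite G] {T H N : Subgroup G} {m p : ℕ}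

theorem iso_inf (hS : Sim T H N) (h : Nat.card ↥(H ⊓ T) = Nat.card N) : Nonempty (↥(H ⊓ T) ≃* N) :=
  ⟨MulEquiv.subgroupCongr (Subgroup.eq_of_le_of_card_ge hS.le h.le).symm⟩

omit [Finite G] in
theorem iso_U {n : ℕ} (D : ClDat p T 1 n 1) : ∃ (F : Type) (_ : Field F) (_ : Fintype F) (_ : CharP F p),
    Fintype.card F = p ^ 2 ∧ Nonempty (T ≃* PSU n F p) := by
  obtain ⟨F, i1, i2, i3, h⟩ := D.iso
  rw [pow_one] at h
  simp only [one_ne_zero, OfNat.one_ne_ofNat, false_and, true_and, or_false, false_or] at h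
  exact ⟨F, i1, i2, i3, h⟩

theorem kill_l27 (hK : AllK) (c : LieCtx T H m p) (hS : Sim T H N) (D : ClDat p T 1 3 1) (hp : p = 3 ∨ p = 5)
    (hN : IsL 2 7 N) (hM : Nat.card N = 168) (hA : Nat.card (MulAut N) = 336)
    (hl : ∀ U : Subgroup N, U ≠ ⊤ → 3 ≤ U.index) : False := by
  have h1 := mem_of_notIn2 (flt_of_sv hK c hS D hM hA hl (flt := notIn2 [(168, 7)])
    (by rcases hp with rfl | rfl <;> decide +kernel))
  simp only [List.mem_singleton, Prod.mk.injEq] at h1
  obtain ⟨K, _, _, hK', ⟨e'⟩⟩ := hN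
  obtain ⟨e⟩ := iso_inf hS (h1.1.trans hM.symm)
  obtain ⟨F, _, _, _, hF, ⟨eT⟩⟩ := iso_U D
  have := Finite.of_equiv _ eT.toEquiv
  have := Finite.of_equiv _ e'.toEquiv
  obtain ⟨S⟩ : Nonempty (Sylow 2 (Matrix.ProjectiveSpecialLinearGroup (Fin 2) K)) := inferInstance
  have h2 : Nat.card (Matrix.ProjectiveSpecialLinearGroup (Fin 2) K) = 168 := (Nat.card_congr e'.toEquiv).symm.trans hM
  obtain ⟨P, ⟨eP⟩, hP⟩ := syl_X c.as c.half eT (e.trans e') (by rw [h1.2]; decide) S
  obtain ⟨k, -, ⟨eD⟩⟩ := H798.psl_two_dihedral (by rw [hK']) (by rw [hK']; decide) S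
  have h3 : 2 ^ k = 2 ^ 2 := by
    have h4 := Nat.card_congr eD.toEquiv
    rw [S.card_eq_multiplicity, h2, DihedralGroup.nat_card, show (168 : ℕ).factorization 2 = 3 by
      rw [← vl_eq Nat.prime_two (by decide)]; decide +kernel] at h4
    omega
  rw [h3] at eD
  rw [h2, h1.2, show nu 400 168 2 * Nat.gcd 168 7 = 147 by decide +kernel] at hP
  have h4 : (2 : F) ≠ 0 := fun h => by
    have := (CharP.cast_eq_zero_iff F p 2).1 (by exact_mod_cast h)
    rcases hp with rfl | rfl <;> omega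
  have h5 := (Nat.card_congr eT.toEquiv).symm.trans D.card
  have h6 : ∀ w, w ∣ (Subgroup.normalizer (P : Set (PSU 3 F p))).index → w ≤ 147 := fun w h =>
    (Nat.le_of_dvd (Nat.pos_of_ne_zero Subgroup.index_ne_zero_of_finite) h).trans hP
  rcases hp with rfl | rfl
  · exact absurd (h6 189 (dvd_index_dih (eP.trans eD) (c := 16)
      (fun V h1 h2 => by simpa using H269.PsuFour.psu3_four hF h4 V h1 h2) (by decide) (by rw [h5]; decide +kernel)))
      (by decide)
  · exact absurd (h6 875 (dvd_index_dih (eP.trans eD) (c := 12)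
      (fun V h1 h2 => by have := H269.PsuFour.psu3_four hF h4 V h1 h2; norm_num at this; omega) (by decide)
      (by rw [h5]; decide +kernel))) (by decide)

theorem kill_u43 (hK : AllK) (c : LieCtx T H m 7) (hS : Sim T H N) (D : ClDat 7 T 0 6 1) (hN : IsU 4 3 N)
    (hM : Nat.card N = 3265920) (hA : Nat.card (MulAut N) = 26127360)
    (hl : ∀ U : Subgroup N, U ≠ ⊤ → 112 ≤ U.index) : False := by
  have h1 := flt_of_sv hK c hS D hM hA hl (flt := fun _ _ d => !Nat.beq (3 ^ 6 % d) 0) (by decide +kernel)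
  rw [Bool.not_eq_false', Nat.beq_eq] at h1
  obtain ⟨K, _, _, hK', ⟨e⟩⟩ := hN
  obtain ⟨g, hg⟩ := c.half.exists_not_mem
  obtain ⟨h2, h3, -⟩ := Sv.boxE hK G T H N m c.as c.half hS g hg
  obtain ⟨k, -, hk⟩ := (Nat.dvd_prime_pow Nat.prime_three).1 (h3.trans (Nat.dvd_of_mod_eq_zero h1))
  have h4 := (H408.BaseU.u43 OrdDiv.table hK hK').of_surjective e.symm.toMonoidHom e.symm.surjective _ k hk
  exact h2.ne' (Subgroup.index_eq_one.2 h4)

theorem kill_l211 (hK : AllK) (c : LieCtx T H m 2) (hS : Sim T H N) (D : ClDat 2 T 1 5 1) (hN : IsL 2 11 N)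
    (hM : Nat.card N = 660) (hA : Nat.card (MulAut N) = 1320) (hl : ∀ U : Subgroup N, U ≠ ⊤ → 5 ≤ U.index) : False := by
  have hT := c.as.normal
  have h1 := mem_of_notIn2 (flt_of_sv hK c hS D hM hA hl (flt := notIn2 [(660, 11), (660, 55)]) (by decide +kernel))
  simp only [List.mem_cons, List.not_mem_nil, or_false, Prod.mk.injEq] at h1
  have ha : Nat.card ↥(H ⊓ T) = 660 := by omega
  have ho : T.index ∣ 2 := D.out
  have hm := c.half.d_mul
  nth_rw 2 [c.as.card_eq_mul c.half] at hm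
  rw [ha] at hm
  have ho' := (Nat.dvd_prime Nat.prime_two).1 ho
  obtain ⟨K, _, _, hK', ⟨e'⟩⟩ := hN
  obtain ⟨e⟩ := iso_inf hS (ha.trans hM.symm)
  obtain ⟨F, _, _, _, hF, ⟨eT⟩⟩ := iso_U D
  have := Finite.of_equiv _ eT.toEquiv
  have := Finite.of_equiv _ e'.toEquiv
  let j : PSU 5 F 2 →* G := T.subtype.comp eT.symm.toMonoidHom
  have hj : Function.Injective j := T.subtype_injective.comp eT.symm.injective
  have key : ∀ r, r.Prime → r ∣ Nat.card H / m → ¬ r ∣ m → ∀ y, orderOf y = r →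
      ∃ φ : Subgroup.centralizer ({y} : Set (PSU 5 F 2)) →* ↥(H ⊓ T), Function.Injective φ := fun r hr h2 h3 y hy => by
    obtain ⟨x, hx⟩ := exists_cj c.half hr h2 h3 (y := j y) (by rw [orderOf_injective j hj, hy])
    refine ⟨(((MulAut.conj x).toMonoidHom.comp j).comp (Subgroup.subtype _)).codRestrict _ fun z =>
      ⟨hx _ ?_, hT.conj_mem _ (eT.symm z).2 x⟩, fun a b h => ?_⟩
    · exact (map_mul j _ _).symm.trans ((congrArg j (Subgroup.mem_centralizer_singleton_iff.1 z.2)).trans (map_mul j _ _))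
    · exact Subtype.ext (hj ((MulAut.conj x).injective (congrArg Subtype.val h)))
  rcases h1 with ⟨-, hd⟩ | ⟨-, hd⟩ <;> rw [hd] at hm
  · have : Fact (Nat.Prime 5) := ⟨by decide⟩
    have : Fact (Nat.Prime 11) := ⟨by decide⟩
    obtain ⟨S⟩ : Nonempty (Sylow 5 ↥(H ⊓ T)) := inferInstance
    obtain ⟨P, ⟨eP⟩, hP⟩ := syl_X c.as c.half eT (MulEquiv.refl _) (by rw [hd]; decide) S
    rw [ha, hd, show nu 400 660 5 * Nat.gcd 660 11 = 726 by decide +kernel] at hP
    have h2 : Nat.card P = 5 := by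
      rw [Nat.card_congr eP.toEquiv, S.card_eq_multiplicity, ha, show (660 : ℕ).factorization 5 = 1 by
        rw [← vl_eq (by decide) (by decide)]; decide +kernel]
      rfl
    have h3 : IsCyclic P := isCyclic_of_prime_card h2
    obtain ⟨z, rfl⟩ := (Subgroup.isCyclic_iff_exists_zpowers_eq_top P).1 h3
    obtain ⟨h4, h5, -⟩ := H876.OZU.cent_data hF (by decide) (r := 5) (d := 4) (p := 2) (by decide) (by decide)
      (orderOf_eq_prime_pow (p := 2) (n := 1) (by decide) (by decide)) (by decide) (Or.inr rfl)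
      (z := z) (by rw [← Nat.card_zpowers, h2])
    obtain ⟨A, hA⟩ := card_norm (Subgroup.zpowers z)
    rw [show Subgroup.centralizer (Subgroup.zpowers z : Set (PSU 5 F 2)) = Subgroup.centralizer {z} by
      rw [Subgroup.zpowers_eq_closure, Subgroup.centralizer_closure]] at hA
    have h6 : Nat.card A ∣ 4 := by
      have h6 := A.card_subgroup_dvd_card
      rwa [IsCyclic.card_mulAut, h2] at h6
    have h7 := (Subgroup.normalizer (Subgroup.zpowers z : Set (PSU 5 F 2))).card_mul_index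
    rw [hA, (Nat.card_congr eT.toEquiv).symm.trans D.card, show ordCl 1 5 (2 ^ 1) = 2816 * 4860 by decide +kernel] at h7
    by_cases h8 : 11 ∣ Nat.card (Subgroup.centralizer ({z} : Set (PSU 5 F 2)))
    · obtain ⟨y, hy⟩ := exists_prime_orderOf_dvd_card' 11 h8
      obtain ⟨φ, hφ⟩ := key 11 (by decide) (by rw [hd]) (by omega) y (by rw [← hy, Subgroup.orderOf_coe])
      have h9 : Nat.card (Subgroup.centralizer ({z} : Set (PSU 5 F 2))) ≤ 660 := by
        refine (Subgroup.card_le_of_le fun x hx => ?_).trans ((Nat.card_le_card_of_injective φ hφ).trans ha.le)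
        exact Subgroup.mem_centralizer_singleton_iff.2 (congrArg Subtype.val (h4.isMulCommutative.is_comm.comm ⟨x, hx⟩ y))
      have h10 := Nat.mul_le_mul (Nat.mul_le_mul h9 (Nat.le_of_dvd four_pos h6)) hP
      omega
    · obtain ⟨u, hu⟩ := h6
      have h9 : 2816 * 4 ∣ Nat.card (Subgroup.centralizer ({z} : Set (PSU 5 F 2))) *
          (4 * (Subgroup.normalizer (Subgroup.zpowers z : Set (PSU 5 F 2))).index) :=
        ⟨1215 * u, by nth_rw 1 [hu]; linear_combination u * h7⟩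
      have h10 := Nat.Coprime.dvd_of_dvd_mul_left (show Nat.Coprime _ (2 ^ 10 * 11) from
        Nat.Coprime.mul_right (h5.symm.pow_right 10) ((Nat.Prime.coprime_iff_not_dvd (by decide)).2 h8).symm).symm h9
      have h11 := Nat.le_of_dvd (Nat.mul_pos four_pos (Nat.pos_of_ne_zero Subgroup.index_ne_zero_of_finite)) h10
      omega
  · obtain ⟨g, hg⟩ := H541.RecU52.exists_fifteen hF
    obtain ⟨φ, hφ⟩ := key 5 (by decide) (by rw [hd]; decide) (by omega) (g ^ 3) (by rw [orderOf_pow, hg]; decide)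
    have : Fact (Nat.Prime 11) := ⟨by decide⟩
    have := H290.ElReg.charP_of_pow (l := 11) (a := 1) (by decide) hK'
    have h2 := H160.PSLTwo.orderOf_dvd 11 (by rw [hK']; decide)
      (e' (e (φ ⟨g, Subgroup.mem_centralizer_singleton_iff.2 (Commute.self_pow g 3)⟩)))
    rw [MulEquiv.orderOf_eq, MulEquiv.orderOf_eq, orderOf_injective φ hφ, ← Subgroup.orderOf_coe, hg, hK'] at h2
    omega

end Cfsg.Agent.TH.Sim.LieN
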