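import Cfsg.Agent.TH.Sim.SporGrp
import Cfsg.Agent.H940.EngData

/-!
# S3541, box `BoxSimSpor` (helper67): the numerical checks, part A
-/

set_option autoImplicit false
set_option maxRecDepth 100000

namespace Cfsg.Agent.TH.Sim.SpR

open Cfsg.Agent.H940.Eng Cfsg.Agent.H940.Eng.D

def loc_m11 : List LD := [⟨5, 5, [(2, 2), (5, 1)]⟩, ⟨11, 11, [(5, 1), (11, 1)]⟩]

theorem chk_m11 : full l_m11 n_m11 o_m11 loc_m11 [] 1 [4, 5] [(3, 8, 1)] 10 = true := by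
  decide +kernel

def loc_m12 : List LD := [⟨5, 10, [(2, 3), (5, 1)]⟩, ⟨11, 11, [(5, 1), (11, 1)]⟩]

theorem chk_m12 : full l_m12 n_m12 o_m12 loc_m12 [] 2 [4, 5] [(3, 8, 0)] 4 = true := by
  decide +kernel

def loc_m22 : List LD := [⟨5, 5, [(2, 2), (5, 1)]⟩, ⟨7, 7, [(3, 1), (7, 1)]⟩, ⟨11, 11, [(5, 1), (11, 1)]⟩]

theorem chk_m22 : full l_m22 n_m22 o_m22 loc_m22 [] 2 [4, 3, 5] [(3, 8, 0)] 6 = true := by
  decide +kernel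

def loc_m23 : List LD := [⟨5, 15, [(2, 2), (3, 1), (5, 1)]⟩, ⟨7, 14, [(2, 1), (3, 1), (7, 1)]⟩, ⟨11, 11, [(5, 1), (11, 1)]⟩, ⟨23, 23, [(11, 1), (23, 1)]⟩]

theorem chk_m23 : full l_m23 n_m23 o_m23 loc_m23 [] 1 [2, 3, 5, 11] [] 22 = true := by
  decide +kernel

def loc_m24 : List LD := [⟨5, 60, [(2, 4), (3, 1), (5, 1)]⟩, ⟨7, 42, [(2, 1), (3, 2), (7, 1)]⟩, ⟨11, 11, [(2, 1), (5, 1), (11, 1)]⟩, ⟨23, 23, [(11, 1), (23, 1)]⟩]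

theorem chk_m24 : full l_m24 n_m24 o_m24 loc_m24 [] 1 [2, 3, 10, 11] [] 10 = true := by
  decide +kernel

def loc_j1 : List LD := [⟨7, 7, [(2, 1), (3, 1), (7, 1)]⟩, ⟨11, 11, [(2, 1), (5, 1), (11, 1)]⟩, ⟨19, 19, [(2, 1), (3, 1), (19, 1)]⟩]

theorem chk_j1 : full l_j1 n_j1 o_j1 loc_j1 [] 1 [6, 10, 6] [] 6 = true := by
  decide +kernel

def loc_j2 : List LD := [⟨7, 7, [(2, 1), (3, 1), (7, 1)]⟩]

theorem chk_j2 : full l_j2 n_j2 o_j2 loc_j2 [35] 2 [6] [] 6 = true := by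
  decide +kernel

def loc_j3 : List LD := [⟨17, 17, [(2, 3), (17, 1)]⟩, ⟨19, 19, [(3, 2), (19, 1)]⟩]

theorem chk_j3 : full l_j3 n_j3 o_j3 loc_j3 [] 2 [8, 9] [] 16 = true := by
  decide +kernel

def loc_j4 : List LD := [⟨23, 23, [(2, 1), (11, 1), (23, 1)]⟩, ⟨29, 29, [(2, 2), (7, 1), (29, 1)]⟩, ⟨31, 31, [(2, 1), (5, 1), (31, 1)]⟩, ⟨37, 37, [(2, 2), (3, 1), (37, 1)]⟩, ⟨43, 43, [(2, 1), (7, 1), (43, 1)]⟩]

theorem chk_j4 : full l_j4 n_j4 o_j4 loc_j4 [] 1 [22, 28, 10, 12, 14] [] 22 = true := by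
  decide +kernel

end Cfsg.Agent.TH.Sim.SpR
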