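import Cfsg.Agent.TH.Sim.SporGrp
import Cfsg.Agent.H940.EngData

/-!
# S3541, box `BoxSimSpor` (helper67): the numerical checks, part B
-/

set_option autoImplicit false
set_option maxRecDepth 100000

namespace Cfsg.Agent.TH.Sim.SpR

open Cfsg.Agent.H940.Eng Cfsg.Agent.H940.Eng.D

def loc_co1 : List LD := []

theorem chk_co1 : full l_co1 n_co1 o_co1 loc_co1 [] 1 [] [(3, 20, 2)] 22 = true := by
  decide +kernel

def loc_co2 : List LD := []

theorem chk_co2 : full l_co2 n_co2 o_co2 loc_co2 [] 1 [] [(5, 20, 1)] 22 = true := by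
  decide +kernel

def loc_co3 : List LD := []

theorem chk_co3 : full l_co3 n_co3 o_co3 loc_co3 [] 1 [] [(5, 20, 1)] 22 = true := by
  decide +kernel

def loc_mcl : List LD := [⟨7, 14, [(2, 1), (3, 1), (7, 1)]⟩, ⟨11, 11, [(5, 1), (11, 1)]⟩]

theorem chk_mcl : full l_mcl n_mcl o_mcl loc_mcl [] 2 [3, 5] [(5, 20, 1)] 8 = true := by
  decide +kernel

def loc_hs : List LD := [⟨7, 7, [(2, 1), (3, 1), (7, 1)]⟩, ⟨11, 11, [(5, 1), (11, 1)]⟩]

theorem chk_hs : full l_hs n_hs o_hs loc_hs [] 2 [6, 5] [] 8 = true := by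
  decide +kernel

def loc_suz : List LD := [⟨11, 11, [(2, 1), (5, 1), (11, 1)]⟩]

theorem chk_suz : full l_suz n_suz o_suz loc_suz [] 2 [10] [(3, 36, 0)] 10 = true := by
  decide +kernel

def loc_he : List LD := [⟨17, 17, [(2, 3), (17, 1)]⟩]

theorem chk_he : full l_he n_he o_he loc_he [] 2 [8] [] 12 = true := by
  decide +kernel

def loc_ru : List LD := []

theorem chk_ru : full l_ru n_ru o_ru loc_ru [] 1 [] [(29, 14, 0), (13, 12, 0)] 28 = true := by
  decide +kernel

def loc_opn : List LD := []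

theorem chk_opn : full l_opn n_opn o_opn loc_opn [] 2 [] [(31, 15, 0), (11, 10, 0)] 30 = true := by
  decide +kernel

end Cfsg.Agent.TH.Sim.SpR
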