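import Cfsg.Agent.TH.Sim.SporGrp
import Cfsg.Agent.H940.EngData

/-!
# S3541, box `BoxSimSpor` (helper67): the numerical checks, part C
-/

set_option autoImplicit false
set_option maxRecDepth 100000

namespace Cfsg.Agent.TH.Sim.SpR

open Cfsg.Agent.H940.Eng Cfsg.Agent.H940.Eng.D

def loc_ly : List LD := [⟨67, 67, [(2, 1), (11, 1), (67, 1)]⟩, ⟨37, 111, [(2, 1), (3, 2), (37, 1)]⟩, ⟨31, 31, [(2, 1), (3, 1), (31, 1)]⟩]

theorem chk_ly : full l_ly n_ly o_ly loc_ly [] 1 [22, 6, 6] [] 30 = true := by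
  decide +kernel

def loc_fi22 : List LD := [⟨13, 13, [(2, 1), (3, 1), (13, 1)]⟩, ⟨11, 22, [(2, 1), (5, 1), (11, 1)]⟩, ⟨7, 42, [(2, 2), (3, 2), (7, 1)]⟩]

theorem chk_fi22 : full l_fi22 n_fi22 o_fi22 loc_fi22 [] 2 [6, 5, 6] [(2, 28, 1)] 10 = true := by
  decide +kernel

def loc_fi23 : List LD := [⟨23, 23, [(11, 1), (23, 1)]⟩, ⟨17, 17, [(2, 4), (17, 1)]⟩, ⟨13, 78, [(2, 2), (3, 2), (13, 1)]⟩, ⟨11, 88, [(2, 3), (5, 1), (11, 1)]⟩]

theorem chk_fi23 : full l_fi23 n_fi23 o_fi23 loc_fi23 [] 1 [11, 16, 6, 5] [] 10 = true := by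
  decide +kernel

def loc_fi24p : List LD := [⟨29, 29, [(2, 1), (7, 1), (29, 1)]⟩, ⟨23, 23, [(11, 1), (23, 1)]⟩, ⟨17, 34, [(2, 4), (17, 1)]⟩, ⟨11, 264, [(2, 3), (3, 1), (5, 1), (11, 1)]⟩, ⟨13, 2808, [(2, 3), (3, 3), (13, 1)]⟩]

theorem chk_fi24p : full l_fi24p n_fi24p o_fi24p loc_fi24p [] 2 [14, 11, 8, 5, 2] [(2, 28, 1)] 12 = true := by
  decide +kernel

def loc_hn : List LD := [⟨11, 22, [(2, 2), (5, 1), (11, 1)]⟩]

theorem chk_hn : full l_hn n_hn o_hn loc_hn [] 2 [10] [(5, 20, 1)] 12 = true := by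
  decide +kernel

def loc_th : List LD := [⟨13, 85293, [(2, 2), (3, 8), (13, 1)]⟩, ⟨19, 19, [(2, 1), (3, 2), (19, 1)]⟩, ⟨31, 67797, [(2, 1), (3, 7), (5, 1), (31, 1)]⟩]

theorem chk_th : full l_th n_th o_th loc_th [] 1 [4, 18, 5] [] 12 = true := by
  decide +kernel

def loc_b : List LD := []

theorem chk_b : full l_b n_b o_b loc_b [] 1 [] [(2, 28, 1)] 46 = true := by
  decide +kernel

def loc_m : List LD := []

theorem chk_m : full l_m n_m o_m loc_m [71] 1 [] [(2, 4096, 1)] 70 = true := by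
  decide +kernel

def loc_tits : List LD := [⟨13, 13, [(2, 1), (3, 1), (13, 1)]⟩]

theorem chk_tits : full [(2, 11), (3, 3), (5, 2), (13, 1)] 17971200 [60, 360, 5616, 7800, 62400, 17971200] loc_tits [] 2 [6] [(5, 24, 0)] 6 = true := by
  decide +kernel

end Cfsg.Agent.TH.Sim.SpR
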